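import Cfsg.Agent.H46CS.Def
import Cfsg.Agent.H72.Basic

/-!
# S4137, piece A3: the case `n1 ∣ n2`, `n1 ∣ n3` (helper84)
-/

set_option autoImplicit false
set_option linter.style.haveILetI false
set_option linter.unusedSectionVars false

namespace Cfsg.Agent.H46CS

open Cfsg.Agent.H35.CR Cfsg.Agent.SC

universe u

namespace A3

variable {G : Type u} [Group G] [Finite G]

/-- fixed points of a `p`-group on a normal subgroup of order divisible by `p` -/
theorem exists_comm {p : ℕ} [hp : Fact p.Prime] {P V : Subgroup G} [V.Normal] (hP : IsPGroup p P)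
    (hpV : p ∣ Nat.card V) : ∃ c0 ∈ V, c0 ≠ 1 ∧ ∀ x ∈ P, x * c0 = c0 * x := by
  letI : MulAction P V := MulAction.compHom V ((MulAut.conjNormal (H := V)).comp P.subtype)
  have hsm : ∀ (x : P) (v : V), ((x • v : V) : G) = (x : G) * v * (x : G)⁻¹ := fun x v => rfl
  have h1 : (1 : V) ∈ MulAction.fixedPoints P V := by
    intro x
    apply Subtype.ext
    rw [hsm]
    simp
  obtain ⟨b, hb, hne⟩ := hP.exists_fixed_point_of_prime_dvd_card_of_fixed_point V hpV h1
  refine ⟨b, b.2, fun h => hne (Subtype.ext h.symm), fun x hx => ?_⟩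
  have h2 := congrArg Subtype.val (hb ⟨x, hx⟩)
  rw [hsm] at h2
  exact mul_inv_eq_iff_eq_mul.1 h2

/-- a normal `p`-subgroup lies in every subgroup of index prime to `p` -/
theorem le_of_not_dvd_index {p : ℕ} [hp : Fact p.Prime] {V H : Subgroup G} [V.Normal] (hV : IsPGroup p V)
    (hH : ¬ p ∣ H.index) : V ≤ H := by
  obtain ⟨q, hq⟩ := hV.nonempty_fixed_point_of_prime_not_dvd_card (G ⧸ H) hH
  obtain ⟨g, rfl⟩ := QuotientGroup.mk_surjective q
  intro v hv
  have h1 : g * v * g⁻¹ ∈ V := (inferInstance : V.Normal).conj_mem v hv g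
  have h2 := hq ⟨g * v * g⁻¹, h1⟩
  have h3 : (QuotientGroup.mk ((g * v * g⁻¹) * g) : G ⧸ H) = QuotientGroup.mk g := h2
  rw [QuotientGroup.eq] at h3
  have h4 : ((g * v * g⁻¹) * g)⁻¹ * g = v⁻¹ := by group
  rw [h4] at h3
  exact (inv_mem_iff).1 h3

theorem not_dvd_index {x : G} {p : ℕ} (hp : p.Prime) (h : ∀ k : ℕ, p ^ k ∣ Nat.card G → p ^ k ∣ c x) :
    ¬ p ∣ (cz x).index := by
  intro hd
  obtain ⟨k, m, hm, hk⟩ := Nat.exists_eq_pow_mul_and_not_dvd (Nat.card_pos (α := G)).ne' p hp.ne_one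
  obtain ⟨r, hr⟩ := h k ⟨m, hk⟩
  have h1 := (cz x).card_mul_index
  have h2 : p ^ k * (r * (cz x).index) = p ^ k * m := by
    rw [← hk, ← h1]
    show _ = c x * _
    rw [hr, mul_assoc]
  have h3 := Nat.eq_of_mul_eq_mul_left (pow_pos hp.pos k) h2
  exact hm (h3 ▸ (hd.mul_left r))

theorem cop_index {x y : G} (h : ∀ g : G, g ≠ 1 → c g ∣ c x ∨ c g ∣ c y) :
    (cz x).index.Coprime (cz y).index := by
  by_contra hcon
  obtain ⟨p, hp, hpx, hpy⟩ := Nat.Prime.not_coprime_iff_dvd.1 hcon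
  have hpG : p ∣ Nat.card G := hpx.trans (cz x).index_dvd_card
  obtain ⟨z, hz, hzk⟩ := exists_full hp hpG
  rcases h z (ne_one_of_prime hp hz) with h1 | h1
  · exact not_dvd_index hp (fun k hk => (hzk k hk).trans h1) hpx
  · exact not_dvd_index hp (fun k hk => (hzk k hk).trans h1) hpy

theorem index_eq {x y : G} (h : c x = c y) : (cz x).index = (cz y).index := by
  have h1 := (cz x).card_mul_index
  have h2 := (cz y).card_mul_index
  apply Nat.eq_of_mul_eq_mul_left (c_pos x)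
  show Nat.card (cz x) * _ = Nat.card (cz x) * _
  rw [h1]
  rw [show Nat.card (cz x) = Nat.card (cz y) from h, h2]

theorem index_dvd {x y : G} (h : c x ∣ c y) : (cz y).index ∣ (cz x).index := by
  obtain ⟨k, hk⟩ := h
  have h1 := (cz x).card_mul_index
  have h2 := (cz y).card_mul_index
  refine ⟨k, ?_⟩
  apply Nat.eq_of_mul_eq_mul_left (c_pos x)
  calc c x * (cz x).index = Nat.card G := h1
    _ = c y * (cz y).index := h2.symm
    _ = c x * ((cz y).index * k) := by rw [hk]; ring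

theorem not_central (hZ : Subgroup.center G = ⊥) {z : G} (hz : z ≠ 1) : ¬ ∀ g : G, g ∈ cz z := by
  intro h
  apply hz
  have : z ∈ Subgroup.center G := Subgroup.mem_center_iff.mpr fun g => mem_cz.1 (h g)
  rwa [hZ, Subgroup.mem_bot] at this

theorem index_ne_one (hZ : Subgroup.center G = ⊥) {z : G} (hz : z ≠ 1) : (cz z).index ≠ 1 := by
  intro h
  apply not_central hZ hz
  rw [Subgroup.index_eq_one] at h
  intro g
  rw [h]; trivial

theorem hmul {u v : G} (huv : (cz u).index.Coprime (cz v).index) (g h : G) :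
    ∃ l : G, (g * u * g⁻¹) * (h * v * h⁻¹) = l * (u * v) * l⁻¹ := by
  obtain ⟨a, ha, b, hb, hab⟩ := Cfsg.Agent.H72.exists_mul_of_coprime_index huv (g⁻¹ * h)
  refine ⟨g * a, ?_⟩
  have h1 : a * u * a⁻¹ = u := by rw [mem_cz.1 ha]; group
  have h2 : b * v * b⁻¹ = v := by rw [mem_cz.1 hb]; group
  have h3 : h = g * a * b := by
    rw [mul_assoc, ← hab]; group
  symm
  calc g * a * (u * v) * (g * a)⁻¹ = g * (a * u * a⁻¹) * (a * v * a⁻¹) * g⁻¹ := by group
    _ = g * u * (a * v * a⁻¹) * g⁻¹ := by rw [h1]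
    _ = g * u * (a * (b * v * b⁻¹) * a⁻¹) * g⁻¹ := by rw [h2]
    _ = (g * u * g⁻¹) * (h * v * h⁻¹) := by rw [h3]; group

/-- the class of `u * v` is at least as large as the class of `u` -/
theorem index_le {u v : G} (huv : (cz u).index.Coprime (cz v).index) : (cz u).index ≤ (cz (u * v)).index := by
  rw [← Cfsg.Agent.H72.card_Cl, ← Cfsg.Agent.H72.card_Cl]
  refine Nat.card_le_card_of_injective (fun x : Cfsg.Agent.H72.Cl u =>
    (⟨(x : G) * v, ?_⟩ : Cfsg.Agent.H72.Cl (u * v))) ?_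
  · obtain ⟨x, g, rfl⟩ := x
    obtain ⟨l, hl⟩ := hmul huv g 1
    refine ⟨l, ?_⟩
    show l * (u * v) * l⁻¹ = g * u * g⁻¹ * v
    rw [← hl]; group
  · intro x y hxy
    have h1 : (x : G) * v = (y : G) * v := congrArg Subtype.val hxy
    exact Subtype.ext (mul_right_cancel h1)

section

variable {n1 n2 n3 : ℕ} (h : D3 G n1 n2 n3) (d12 : n1 ∣ n2) (d13 : n1 ∣ n3)

include h d12 d13

theorem hco {x y : G} (hx : c x = n2) (hy : c y = n3) : (cz x).index.Coprime (cz y).index := by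
  apply cop_index
  intro g hg
  rcases h.hall g hg with h1 | h1 | h1
  · left; rw [h1, hx]; exact d12
  · left; rw [h1, hx]
  · right; rw [h1, hy]

theorem min_of_type1 {x : G} (hx : c x = n1) : ∀ g : G, g ≠ 1 → c g ∣ c x → c g = c x := by
  intro g hg hd
  rcases h.hall g hg with h1 | h1 | h1
  · rw [h1, hx]
  · exfalso
    rw [h1, hx] at hd
    exact h.h12 (Nat.dvd_antisymm d12 hd)
  · exfalso
    rw [h1, hx] at hd
    exact h.h13 (Nat.dvd_antisymm d13 hd)

/-- elements with a full `p`-part in the centralizer, `p ∣ m3` -/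
theorem full2 {x3 : G} (hx3 : c x3 = n3) {p : ℕ} (hp : p.Prime) (hpm : p ∣ (cz x3).index) {x : G} (hx : x ≠ 1)
    (hk : ∀ k : ℕ, p ^ k ∣ Nat.card G → p ^ k ∣ c x) : c x = n2 := by
  have h1 := not_dvd_index hp hk
  rcases h.hall x hx with h2 | h2 | h2
  · exfalso
    apply h1
    exact hpm.trans (index_dvd (by rw [h2, hx3]; exact d13))
  · exact h2
  · exfalso
    apply h1
    rw [index_eq (h2.trans hx3.symm)]
    exact hpm

theorem full3 {x2 : G} (hx2 : c x2 = n2) {p : ℕ} (hp : p.Prime) (hpm : p ∣ (cz x2).index) {x : G} (hx : x ≠ 1)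
    (hk : ∀ k : ℕ, p ^ k ∣ Nat.card G → p ^ k ∣ c x) : c x = n3 := by
  have h1 := not_dvd_index hp hk
  rcases h.hall x hx with h2 | h2 | h2
  · exfalso
    apply h1
    exact hpm.trans (index_dvd (by rw [h2, hx2]; exact d12))
  · exfalso
    apply h1
    rw [index_eq (h2.trans hx2.symm)]
    exact hpm
  · exact h2

/-- Step 2 -/
theorem lemA (hdich : ∀ x y : G, (cz x).index.Coprime (cz y).index → (cz (x * y)).index.Coprime (cz y).index →
      ∃ M : Subgroup G, M.Normal ∧ (∀ a ∈ M, ∀ b ∈ M, a * b = b * a) ∧ y ∈ M ∧ Nat.card M ∣ (cz x).index ∧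
        ∀ m ∈ M, ∃ g : G, x * m = g * x * g⁻¹)
    (hstar : ∀ r t : ℕ, r.Prime → t.Prime → r ≠ t → ∀ v y : G, orderOf v = r → orderOf y = t → c v = n2 → c y = n3 →
      y ∉ cz v) (hlt : n2 < n3) {r t : ℕ} (hr : r.Prime) (ht : t.Prime) (hrt : r ≠ t) {v y : G} (hv : orderOf v = r)
    (hy : orderOf y = t) (hcv : c v = n2) (hcy : c y = n3) :
    ∃ M : Subgroup G, M.Normal ∧ (∀ a ∈ M, ∀ b ∈ M, a * b = b * a) ∧ y ∈ M ∧ Nat.card M ∣ (cz v).index ∧
        ∀ m ∈ M, ∃ g : G, v * m = g * v * g⁻¹ := by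
  have hco1 := hco h d12 d13 hcv hcy
  have hvy1 : v * y ≠ 1 := by
    intro hvy
    have h1 : y = v⁻¹ := (inv_eq_of_mul_eq_one_right hvy).symm
    apply hrt
    rw [← hv, ← hy, h1, orderOf_inv]
  rcases h.hall _ hvy1 with h1 | h1 | h1
  · exfalso
    have hD := Cfsg.Agent.H72.inf_index_of_coprime hco1
    have hle : cz v ⊓ cz y ≤ cz (v * y) := by
      intro g hg
      rw [mem_cz]
      exact (show Commute g v from mem_cz.1 hg.1).mul_right (mem_cz.1 hg.2)
    have h2 : (cz v).index ∣ (cz (v * y)).index := index_dvd (by rw [h1, hcv]; exact d12)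
    have h3 : (cz y).index ∣ (cz (v * y)).index := index_dvd (by rw [h1, hcy]; exact d13)
    have h4 : (cz v ⊓ cz y).index ∣ (cz (v * y)).index := by
      rw [hD]; exact hco1.mul_dvd_of_dvd_of_dvd h2 h3
    have h5 := Nat.dvd_antisymm h4 (Subgroup.index_dvd_of_le hle)
    have h6 : Nat.card (cz (v * y)) = Nat.card (cz v ⊓ cz y : Subgroup G) := by
      have e1 := (cz (v * y)).card_mul_index
      have e2 := (cz v ⊓ cz y).card_mul_index
      rw [h5] at e2
      apply Nat.eq_of_mul_eq_mul_right (Nat.pos_of_ne_zero (Subgroup.index_ne_zero_of_finite (H := cz (v * y))))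
      exact e1.trans e2.symm
    have h7 := Subgroup.eq_of_le_of_card_ge hle (le_of_eq h6)
    have h8 : v * y ∈ cz v := by
      have : v * y ∈ cz v ⊓ cz y := by rw [h7]; exact self_mem _
      exact this.1
    apply hstar r t hr ht hrt v y hv hy hcv hcy
    rw [mem_cz, mul_assoc] at h8
    rw [mem_cz]
    exact (mul_left_cancel h8).symm ▸ rfl
  · exact hdich v y hco1 (by rw [index_eq (h1.trans hcv.symm)]; exact hco1)
  · exfalso
    have h2 := index_le hco1
    rw [index_eq (h1.trans hcy.symm)] at h2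
    have e1 := (cz v).card_mul_index
    have e2 := (cz y).card_mul_index
    have e3 : Nat.card (cz v) = n2 := hcv
    have e4 : Nat.card (cz y) = n3 := hcy
    rw [e3] at e1
    rw [e4] at e2
    have h3 : 0 < (cz y).index := Nat.pos_of_ne_zero (Subgroup.index_ne_zero_of_finite (H := cz y))
    have h4 : n2 * (cz v).index ≤ n2 * (cz y).index := Nat.mul_le_mul_left _ h2
    have h5 : n2 * (cz y).index < n3 * (cz y).index := Nat.mul_lt_mul_of_pos_right hlt h3
    omega

omit h d12 d13 in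
theorem lemB {r : ℕ} (hr : r.Prime) {v : G} (hv : orderOf v = r) {M : Subgroup G} (hM : Nat.card M ∣ (cz v).index)
    (hrm : ¬ r ∣ (cz v).index) (hc : ∀ m ∈ M, ∃ g : G, v * m = g * v * g⁻¹) {m : G} (hm : m ∈ M) (hmv : m ∈ cz v) :
    m = 1 := by
  obtain ⟨g, hg⟩ := hc m hm
  have h1 : (v * m) ^ r = 1 := by
    rw [hg, conj_pow, ← hv, pow_orderOf_eq_one]; group
  have h2 : Commute v m := (mem_cz.1 hmv).symm
  rw [h2.mul_pow, ← hv, pow_orderOf_eq_one, one_mul, hv] at h1
  have h3 : orderOf m ∣ r := orderOf_dvd_of_pow_eq_one h1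
  have h4 : orderOf m ∣ (cz v).index := (M.orderOf_dvd_natCard hm).trans hM
  rcases (Nat.dvd_prime hr).1 h3 with h5 | h5
  · exact orderOf_eq_one_iff.1 h5
  · exact absurd (h5 ▸ h4) hrm

theorem main (hdich : ∀ x y : G, (cz x).index.Coprime (cz y).index → (cz (x * y)).index.Coprime (cz y).index →
      ∃ M : Subgroup G, M.Normal ∧ (∀ a ∈ M, ∀ b ∈ M, a * b = b * a) ∧ y ∈ M ∧ Nat.card M ∣ (cz x).index ∧
        ∀ m ∈ M, ∃ g : G, x * m = g * x * g⁻¹)
    (hstar : ∀ r t : ℕ, r.Prime → t.Prime → r ≠ t → ∀ v y : G, orderOf v = r → orderOf y = t → c v = n2 → c y = n3 →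
      y ∉ cz v) (hlt : n2 < n3) : False := by
  classical
  obtain ⟨x1, hx1, hcx1⟩ := h.ex1
  obtain ⟨x2, hx2, hcx2⟩ := h.ex2
  obtain ⟨x3, hx3, hcx3⟩ := h.ex3
  have hco0 := hco h d12 d13 hcx2 hcx3
  obtain ⟨r, hr, hrm3⟩ := Nat.exists_prime_and_dvd (index_ne_one h.hZ hx3)
  obtain ⟨t, ht, htm2⟩ := Nat.exists_prime_and_dvd (index_ne_one h.hZ hx2)
  have hA := fun {r t : ℕ} (hr : r.Prime) (ht : t.Prime) (hrt : r ≠ t) {v y : G} (hv : orderOf v = r)
    (hy : orderOf y = t) (hcv : c v = n2) (hcy : c y = n3) =>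
      lemA h d12 d13 hdich hstar hlt hr ht hrt hv hy hcv hcy
  haveI : Fact r.Prime := ⟨hr⟩
  have hrG : r ∣ Nat.card G := hrm3.trans (cz x3).index_dvd_card
  have hrm2 : ¬ r ∣ (cz x2).index := fun hd => Nat.Prime.not_coprime_iff_dvd.2 ⟨r, hr, hd, hrm3⟩ hco0
  obtain ⟨v, hv, hvk⟩ := exists_full hr hrG
  have hv1 := ne_one_of_prime hr hv
  have hcv : c v = n2 := full2 h d12 d13 hcx3 hr hrm3 hv1 hvk
  have hm2 : ∀ {g : G}, c g = n2 → (cz g).index = (cz x2).index := fun hg => index_eq (hg.trans hcx2.symm)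
  have hm3 : ∀ {g : G}, c g = n3 → (cz g).index = (cz x3).index := fun hg => index_eq (hg.trans hcx3.symm)
  -- Step 3
  have step3 : ∀ t : ℕ, t.Prime → t ∣ (cz x2).index → ¬ t ∣ n2 := by
    clear htm2 ht t
    intro t ht htm2 htn2
    haveI : Fact t.Prime := ⟨ht⟩
    have htG : t ∣ Nat.card G := htm2.trans (cz x2).index_dvd_card
    have hrt : r ≠ t := fun he => hrm2 (he ▸ htm2)
    obtain ⟨y, hy, hyk⟩ := exists_full ht htG
    have hy1 := ne_one_of_prime ht hy
    have hcy : c y = n3 := full3 h d12 d13 hcx2 ht htm2 hy1 hyk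
    obtain ⟨w0, hw0⟩ := exists_prime_orderOf_dvd_card' (G := cz v) t (by
      rw [show Nat.card (cz v) = n2 from hcv]; exact htn2)
    obtain ⟨w, hwv⟩ := w0
    rw [Subgroup.orderOf_mk] at hw0
    have hw1 := ne_one_of_prime ht hw0
    have hwp : IsPGroup t (Subgroup.zpowers w) := by
      refine IsPGroup.of_card (n := 1) ?_
      rw [Nat.card_zpowers, hw0, pow_one]
    rcases h.hall w hw1 with h1 | h1 | h1
    · -- type 1
      have hle : cz w ≤ cz v := le_of_min (min_of_type1 h d12 d13 h1) hw1 (mem_cz_symm hwv) (by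
        rw [hw0, hv]; exact (Nat.coprime_primes ht hr).2 (Ne.symm hrt))
      obtain ⟨M, hMn, hMa, hyM, hMc, hMv⟩ := hA hr ht hrt hv hy hcv hcy
      have htM : t ∣ Nat.card M := by rw [← hy]; exact M.orderOf_dvd_natCard hyM
      obtain ⟨c0, hc0M, hc01, hc0⟩ := exists_comm hwp htM
      apply hc01
      refine lemB hr hv hMc (by rw [hm2 hcv]; exact hrm2) hMv hc0M (hle ?_)
      exact mem_cz.2 (hc0 w (Subgroup.mem_zpowers w)).symm
    · -- type 2
      obtain ⟨T, hT⟩ := Cfsg.Agent.H72.exists_sylow_le_of_not_dvd_index (p := r) (cz w) (by rw [hm2 h1]; exact hrm2)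
      have hTne : (T : Subgroup G) ≠ ⊥ := T.ne_bot_of_dvd_card hrG
      obtain ⟨v', hv'T, hv', hv'c⟩ := exists_center_order T.isPGroup' hTne
      have hv'1 := ne_one_of_prime hr hv'
      have hTv' : (T : Subgroup G) ≤ cz v' := fun x hx => mem_cz.2 (hv'c x hx)
      have hcv' : c v' = n2 := full2 h d12 d13 hcx3 hr hrm3 hv'1 (fun k hk =>
        (T.pow_dvd_card_of_pow_dvd_card hk).trans (Subgroup.card_dvd_of_le hTv'))
      have hv'w : v' ∈ cz w := hT hv'T
      have hcomm : v' * w = w * v' := mem_cz.1 hv'w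
      have hcop' : (orderOf v').Coprime (orderOf w) := by
        rw [hv', hw0]; exact (Nat.coprime_primes hr ht).2 hrt
      have hne : v' * w ≠ 1 := by
        intro he
        apply hrt
        have h2 : w = v'⁻¹ := (inv_eq_of_mul_eq_one_right he).symm
        rw [← hv', ← hw0, h2, orderOf_inv]
      have hTvw : (T : Subgroup G) ≤ cz (v' * w) := fun x hx =>
        mem_cz.2 ((show Commute x v' from mem_cz.1 (hTv' hx)).mul_right (mem_cz.1 (hT hx)))
      have hcvw : c (v' * w) = n2 := full2 h d12 d13 hcx3 hr hrm3 hne (fun k hk =>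
        (T.pow_dvd_card_of_pow_dvd_card hk).trans (Subgroup.card_dvd_of_le hTvw))
      have e1 := cz_eq (cz_mul_le hcomm hcop') (hcvw.trans hcv'.symm)
      have e2 := cz_eq (cz_mul_le' hcomm hcop') (hcvw.trans h1.symm)
      obtain ⟨M, hMn, hMa, hyM, hMc, hMv⟩ := hA hr ht hrt hv' hy hcv' hcy
      have htM : t ∣ Nat.card M := by rw [← hy]; exact M.orderOf_dvd_natCard hyM
      obtain ⟨c0, hc0M, hc01, hc0⟩ := exists_comm hwp htM
      apply hc01
      refine lemB hr hv' hMc (by rw [hm2 hcv']; exact hrm2) hMv hc0M ?_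
      rw [← e1, e2]
      exact mem_cz.2 (hc0 w (Subgroup.mem_zpowers w)).symm
    · exact hstar r t hr ht hrt v w hv hw0 hcv h1 hwv
  -- Step 4
  haveI : Fact t.Prime := ⟨ht⟩
  have htG : t ∣ Nat.card G := htm2.trans (cz x2).index_dvd_card
  have htm3 : ¬ t ∣ (cz x3).index := fun hd => Nat.Prime.not_coprime_iff_dvd.2 ⟨t, ht, htm2, hd⟩ hco0
  have hrt : r ≠ t := fun he => hrm2 (he ▸ htm2)
  obtain ⟨y, hy, hyk⟩ := exists_full ht htG
  have hy1 := ne_one_of_prime ht hy
  have hcy : c y = n3 := full3 h d12 d13 hcx2 ht htm2 hy1 hyk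
  obtain ⟨M, hMn, hMa, hyM, hMc, hMv⟩ := hA hr ht hrt hv hy hcv hcy
  let V : Subgroup G :=
    { carrier := {m | m ∈ M ∧ m ^ t = 1}
      mul_mem' := by
        rintro a b ⟨ha, ha1⟩ ⟨hb, hb1⟩
        refine ⟨M.mul_mem ha hb, ?_⟩
        rw [(show Commute a b from hMa a ha b hb).mul_pow, ha1, hb1, one_mul]
      one_mem' := ⟨M.one_mem, one_pow _⟩
      inv_mem' := by
        rintro a ⟨ha, ha1⟩
        exact ⟨M.inv_mem ha, by rw [inv_pow, ha1, inv_one]⟩ }
  haveI hVn : V.Normal := by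
    refine ⟨?_⟩
    rintro m ⟨hm, hm1⟩ g
    exact ⟨hMn.conj_mem m hm g, by rw [conj_pow, hm1]; group⟩
  have hVp : IsPGroup t V := by
    rintro ⟨m, hm, hm1⟩
    refine ⟨1, ?_⟩
    apply Subtype.ext
    show m ^ t ^ 1 = 1
    rw [pow_one, hm1]
  have hyV : y ∈ V := ⟨hyM, by rw [← hy, pow_orderOf_eq_one]⟩
  have hn1 : n1 ≠ 1 := by
    intro he
    apply hx1
    have h1 : orderOf x1 ∣ c x1 := (cz x1).orderOf_dvd_natCard (self_mem x1)
    rw [hcx1, he, Nat.dvd_one] at h1
    exact orderOf_eq_one_iff.1 h1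
  obtain ⟨s, hs, hsn1⟩ := Nat.exists_prime_and_dvd hn1
  haveI : Fact s.Prime := ⟨hs⟩
  have hsm2 : ¬ s ∣ (cz x2).index := fun hd => step3 s hs hd (hsn1.trans d12)
  have htn2 := step3 t ht htm2
  obtain ⟨⟨u, huy⟩, hu0⟩ := exists_prime_orderOf_dvd_card' (G := cz y) s (by
    rw [show Nat.card (cz y) = n3 from hcy]; exact hsn1.trans d13)
  rw [Subgroup.orderOf_mk] at hu0
  have hu1 := ne_one_of_prime hs hu0
  have type3 : ∀ {x : G}, x ≠ 1 → y ∈ cz x → c x = n3 := by
    intro x hx hyx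
    have h1 : t ∣ c x := by rw [← hy]; exact (cz x).orderOf_dvd_natCard hyx
    rcases h.hall x hx with h2 | h2 | h2
    · exact absurd ((h2 ▸ h1).trans d12) htn2
    · exact absurd (h2 ▸ h1) htn2
    · exact h2
  have hcu : c u = n3 := type3 hu1 (mem_cz_symm huy)
  by_cases hsm3 : s ∣ (cz x3).index
  · have hVu : V ≤ cz u := le_of_not_dvd_index hVp (by rw [hm3 hcu]; exact htm3)
    have huL : u ∈ Subgroup.centralizer (V : Set G) := by
      rw [Subgroup.mem_centralizer_iff]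
      intro m hm
      exact mem_cz.1 (hVu hm)
    have hsL : s ∣ Nat.card (Subgroup.centralizer (V : Set G)) := by
      rw [← hu0]; exact (Subgroup.centralizer (V : Set G)).orderOf_dvd_natCard huL
    let S : Sylow s G := default
    obtain ⟨c0, hc0L, hc01, hc0⟩ := exists_comm S.isPGroup' hsL
    have hSc : (S : Subgroup G) ≤ cz c0 := fun x hx => mem_cz.2 (hc0 x hx)
    have h1 : c c0 = n2 := full2 h d12 d13 hcx3 hs hsm3 hc01 (fun k hk =>
      (S.pow_dvd_card_of_pow_dvd_card hk).trans (Subgroup.card_dvd_of_le hSc))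
    have h2 : c c0 = n3 := type3 hc01 (mem_cz.2 (Subgroup.mem_centralizer_iff.1 hc0L y hyV))
    exact h.h23 (h1.symm.trans h2)
  · have hrs : r ≠ s := fun he => hsm3 (he ▸ hrm3)
    obtain ⟨M', hM'n, hM'a, huM', hM'c, hM'v⟩ := hA hr hs hrs hv hu0 hcv hcu
    apply hsm2
    rw [← hm2 hcv]
    refine Dvd.dvd.trans ?_ hM'c
    rw [← hu0]; exact M'.orderOf_dvd_natCard huM'

end

end A3

/-- the case `n1 ∣ n2`, `n1 ∣ n3` from the dichotomy and the (star) statement. -/
theorem case_a_of {G : Type u} [Group G] [Finite G] {n1 n2 n3 : ℕ} (h : D3 G n1 n2 n3) (d12 : n1 ∣ n2)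
    (d13 : n1 ∣ n3)
    (hdich : ∀ x y : G, (cz x).index.Coprime (cz y).index → (cz (x * y)).index.Coprime (cz y).index →
      ∃ M : Subgroup G, M.Normal ∧ (∀ a ∈ M, ∀ b ∈ M, a * b = b * a) ∧ y ∈ M ∧ Nat.card M ∣ (cz x).index ∧
        ∀ m ∈ M, ∃ g : G, x * m = g * x * g⁻¹)
    (hstar : ∀ r t : ℕ, r.Prime → t.Prime → r ≠ t → ∀ v y : G, orderOf v = r → orderOf y = t → c v = n2 → c y = n3 →
      y ∉ cz v) : False := by
  rcases Nat.lt_or_gt_of_ne h.h23 with hlt | hlt
  · exact A3.main h d12 d13 hdich hstar hlt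
  · have h' : D3 G n1 n3 n2 :=
      { ns := h.ns, hZ := h.hZ
        hall := fun g hg => by
          rcases h.hall g hg with h1 | h1 | h1
          · exact Or.inl h1
          · exact Or.inr (Or.inr h1)
          · exact Or.inr (Or.inl h1)
        h12 := h.h13, h13 := h.h12, h23 := h.h23.symm, ex1 := h.ex1, ex2 := h.ex3, ex3 := h.ex2 }
    refine A3.main h' d13 d12 hdich ?_ hlt
    intro r t hr ht hrt v y hv hy hcv hcy hyv
    exact hstar t r ht hr (Ne.symm hrt) y v hy hv hcy hcv (mem_cz_symm hyv)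

end Cfsg.Agent.H46CS
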