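import Cfsg.Agent.H35.CRb
import Cfsg.Prelude.Def_Transfer

/-!
# S4137: nonsolvable centreless groups with three orders of centralizers. Definitions.
-/

set_option autoImplicit false

namespace Cfsg.Agent.H46CS

open Cfsg.Agent.H35.CR Cfsg.Agent.SC

universe u

variable (G : Type u) [Group G] [Finite G]

/-- a nonsolvable centreless group with three orders `n1, n2, n3` of centralizers of nonidentity elements
(`c g = Nat.card (cz g)`, `cz g` the centralizer of `g`). -/
structure D3 (n1 n2 n3 : ℕ) : Prop where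
  ns : ¬ Group.IsSolvable G
  hZ : Subgroup.center G = ⊥
  hall : ∀ g : G, g ≠ 1 → c g = n1 ∨ c g = n2 ∨ c g = n3
  h12 : n1 ≠ n2
  h13 : n1 ≠ n3
  h23 : n2 ≠ n3
  ex1 : ∃ x : G, x ≠ 1 ∧ c x = n1
  ex2 : ∃ x : G, x ≠ 1 ∧ c x = n2
  ex3 : ∃ x : G, x ≠ 1 ∧ c x = n3

/-- Situation U: `D` is a nilpotent Hall subgroup of order `n2`, `n2 * n3 = |G|`, `n1 ∣ n3`; there are `v, w` of
different prime orders with the same centralizer, of order `n3`. -/
structure U (n1 n2 n3 : ℕ) (D : Subgroup G) : Prop extends D3 G n1 n2 n3 where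
  d13 : n1 ∣ n3
  nil : Group.IsNilpotent D
  card : Nat.card D = n2
  mul : n2 * n3 = Nat.card G
  cop : n2.Coprime n3
  vw : ∃ (s q : ℕ) (v w : G), s.Prime ∧ q.Prime ∧ s ≠ q ∧ orderOf v = s ∧ orderOf w = q ∧ cz v = cz w ∧ c v = n3

variable {G} {n1 n2 n3 : ℕ} {D : Subgroup G}

namespace U

variable (h : U G n1 n2 n3 D)

include h

/-- an element of order divisible by a prime not dividing `n2` has centralizer order `n1` or `n3`. -/
theorem type13 {x : G} {r : ℕ} (hr : r.Prime) (hrn : ¬ r ∣ n2) (hrx : r ∣ orderOf x) : c x = n1 ∨ c x = n3 := by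
  have hx1 : x ≠ 1 := by rintro rfl; rw [orderOf_one, Nat.dvd_one] at hrx; exact hr.one_lt.ne' hrx
  rcases h.hall x hx1 with h1 | h1 | h1
  · exact Or.inl h1
  · exfalso
    apply hrn
    rw [← h1]
    exact hrx.trans ((Subgroup.orderOf_coe (⟨x, self_mem x⟩ : cz x) ▸ (orderOf_dvd_natCard (⟨x, self_mem x⟩ : cz x))))
  · exact Or.inr h1

/-- no commuting between elements of order dividing into `n2` and elements of order prime to `n2`. -/
theorem nocomm {x y : G} (hx : x ≠ 1) (hy : y ≠ 1) (hxo : (orderOf x).Coprime n3) (hyo : (orderOf y).Coprime n2) :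
    y ∉ cz x := by
  intro hxy
  have d : ∀ {a b : G}, b ∈ cz a → orderOf b ∣ c a := fun {a b} hab => by
    have := orderOf_dvd_natCard (⟨b, hab⟩ : cz a)
    rwa [← Subgroup.orderOf_coe] at this
  have hy1 : orderOf y ≠ 1 := fun h => hy (orderOf_eq_one_iff.1 h)
  have hx1 : orderOf x ≠ 1 := fun h => hx (orderOf_eq_one_iff.1 h)
  rcases h.hall x hx with h1 | h1 | h1
  · apply hx1
    exact Nat.Coprime.eq_one_of_dvd hxo ((h1 ▸ d (self_mem x) : orderOf x ∣ n1).trans h.d13)
  · exact hy1 (Nat.Coprime.eq_one_of_dvd hyo (h1 ▸ d hxy))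
  · exact hx1 (Nat.Coprime.eq_one_of_dvd hxo (h1 ▸ d (self_mem x)))

end U

end Cfsg.Agent.H46CS
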