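import Cfsg.Agent.H46CS.Def
import Cfsg.Agent.FT.Base
import Cfsg.Agent.H68.CAEvenC
import Cfsg.Agent.ClassBase.RelHom

/-!
# Nonsolvable groups with self-centralizing involution centralizers are `PSL₂(2^a)`
-/

set_option autoImplicit false
set_option linter.unusedSectionVars false

namespace Cfsg.Agent.H46CS

open Cfsg.Agent.H35.CR Cfsg.Agent.SC Cfsg.Agent.H34 Cfsg.Agent.H68.CA

universe u

variable {G : Type u} [Group G] [Finite G]

theorem inv_solv_of {N : Subgroup G} [N.Normal] (h1 : Group.IsSolvable N) (h2 : Group.IsSolvable (G ⧸ N)) :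
    Group.IsSolvable G :=
  solvable_of_ker_le_range N.subtype (QuotientGroup.mk' N) (by rw [QuotientGroup.ker_mk', Subgroup.range_subtype])

theorem inv_es (hns : ¬ Group.IsSolvable G) {A : Subgroup G} (hA : SelfCent A) (h2 : 2 ∣ Nat.card A) : ES A := by
  classical
  have hp2 : Fact (Nat.Prime 2) := ⟨Nat.prime_two⟩
  obtain ⟨S, hS⟩ := hA.exists_sylow_le h2
  have hAs : Group.IsSolvable A := Group.isSolvable_of_comm fun x y => Subtype.ext (hA.comm x.2 y.2)
  refine ⟨hA, h2, ?_, ?_⟩
  · intro h1
    have hn : A.Normal := Subgroup.normalizer_eq_top_iff.1 h1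
    apply hns
    refine inv_solv_of hAs (Cfsg.Agent.FT.solvable_of_odd ?_)
    have h1 : ¬ 2 ∣ (S : Subgroup G).index := S.not_dvd_index
    have h2 : A.index ∣ (S : Subgroup G).index := Subgroup.index_dvd_of_le hS
    rw [← Nat.not_even_iff_odd, even_iff_two_dvd]
    exact fun h3 => h1 (h3.trans h2)
  · intro hN
    have h2G : 2 ∣ Nat.card G := h2.trans (Subgroup.card_subgroup_dvd_card A)
    have h2S : 2 ∣ Nat.card S := S.dvd_card_of_dvd_card h2G
    obtain ⟨s, hs⟩ := exists_prime_orderOf_dvd_card' 2 h2S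
    have hs1 : (s : G) ≠ 1 := by
      intro h3
      have : s = 1 := Subtype.ext h3
      rw [this, orderOf_one] at hs
      omega
    have hP : Subgroup.normalizer ((S : Subgroup G) : Set G) ≤ Subgroup.centralizer ((S : Subgroup G) : Set G) := by
      intro n hn
      have h3 : n * s * n⁻¹ ∈ A := hS ((Subgroup.mem_normalizer_iff.1 hn s).1 s.2)
      have h4 : n ∈ A := hN (hA.mem_normalizer (hS s.2) hs1 h3)
      rw [Subgroup.mem_centralizer_iff]
      intro x hx
      exact hA.comm (hS hx) h4
    have hc := MonoidHom.ker_transferSylow_isComplement' S hP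
    have h5 : Odd (Nat.card (MonoidHom.transferSylow S hP).ker) := by
      have h6 := hc.card_mul
      have h7 : ¬ 2 ∣ (S : Subgroup G).index := S.not_dvd_index
      rw [← Nat.not_even_iff_odd, even_iff_two_dvd]
      intro h8
      apply h7
      have h9 := (S : Subgroup G).index_mul_card
      rw [← h6] at h9
      rw [Nat.eq_of_mul_eq_mul_right Nat.card_pos h9]
      exact h8
    apply hns
    have h10 := Cfsg.Agent.FT.solvable_of_odd h5
    have h11 : Group.IsSolvable S := Group.isSolvable_of_comm fun x y => Subtype.ext (hA.comm (hS x.2) (hS y.2))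
    exact solvable_of_ker_le_range (MonoidHom.transferSylow S hP).ker.subtype (MonoidHom.transferSylow S hP)
      (by rw [Subgroup.range_subtype])

theorem inv_zass (hns : ¬ Group.IsSolvable G) {A : Subgroup G} (h : ES A) :
    Cfsg.IsZassenhausGroup G (G ⧸ Nn A) := by
  classical
  obtain ⟨g, hg⟩ : ∃ g, g ∉ Nn A := by
    by_contra hcon
    push Not at hcon
    exact h.ne_top (eq_top_iff.2 fun g _ => hcon g)
  have hy : al A ≠ (QuotientGroup.mk g : G ⧸ Nn A) := by
    intro h1
    apply hg
    rw [← smul_al_iff, smul_al, h1]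
  have hAs : Group.IsSolvable A := Group.isSolvable_of_comm fun x y => Subtype.ext (h.sc.comm x.2 y.2)
  obtain ⟨d, hd, hd1⟩ := h.exists_stab_ne hy
  refine ⟨?_, h.two_trans, h.three, ⟨d, hd1, _, _, hy, (mem_stab2.1 hd).1, (mem_stab2.1 hd).2⟩, ?_⟩
  · constructor
    intro x y hxy
    have hfix : ∀ k ∈ (MulAction.toPermHom G (G ⧸ Nn A)).ker, ∀ b : G ⧸ Nn A, k • b = b := by
      intro k hk b
      rw [MonoidHom.mem_ker] at hk
      exact congrArg (fun p : Equiv.Perm (G ⧸ Nn A) => p b) hk
    have hker : (MulAction.toPermHom G (G ⧸ Nn A)).ker = ⊥ := by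
      rw [Subgroup.eq_bot_iff_forall]
      intro k hk
      have hkN : k ∈ Nn A := smul_al_iff.1 (hfix k hk _)
      obtain ⟨t, ht, -, ht1⟩ := h.exists_inv
      have h1 : k * t * k⁻¹ ∈ A := (Subgroup.mem_normalizer_iff.1 hkN t).1 ht
      have h2 : k * (t * k⁻¹ * t⁻¹) ∈ (MulAction.toPermHom G (G ⧸ Nn A)).ker :=
        Subgroup.mul_mem _ hk ((inferInstance : (MulAction.toPermHom G (G ⧸ Nn A)).ker.Normal).conj_mem _
          (Subgroup.inv_mem _ hk) t)
      have h3 : k * (t * k⁻¹ * t⁻¹) = 1 := by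
        refine h.A_fix ?_ hy (hfix _ h2 _)
        have : k * (t * k⁻¹ * t⁻¹) = (k * t * k⁻¹) * t⁻¹ := by group
        rw [this]
        exact A.mul_mem h1 (A.inv_mem ht)
      have h4 : k * t = t * k := by
        calc k * t = (k * (t * k⁻¹ * t⁻¹)) * (t * k) := by group
          _ = t * k := by rw [h3, one_mul]
      exact h.A_fix (h.free ht ht1 h4) hy (hfix k hk _)
    have h2 : x⁻¹ * y ∈ (MulAction.toPermHom G (G ⧸ Nn A)).ker := by
      rw [MonoidHom.mem_ker]
      ext a
      show (x⁻¹ * y) • a = a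
      rw [mul_smul, ← hxy, inv_smul_smul]
    rw [hker, Subgroup.mem_bot] at h2
    exact inv_mul_eq_one.1 h2
  · intro N hN hNt
    refine ⟨al A, ?_⟩
    intro h2
    apply hns
    -- `N` is regular
    have hcardN : Nat.card N = Nat.card A + 1 := by
      rw [← h.card_omega]
      have h3 : Function.Bijective (fun n : N => n • al A) := by
        constructor
        · intro m n hmn
          have hmn' : (m : G) • al A = (n : G) • al A := hmn
          have h4 := (Subgroup.eq_bot_iff_forall _).1 h2 (n⁻¹ * m) (by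
            rw [MulAction.mem_stabilizer_iff]
            show ((n : G)⁻¹ * (m : G)) • al A = al A
            rw [mul_smul, hmn', inv_smul_smul])
          exact (inv_mul_eq_one.1 h4).symm
        · intro b
          exact hNt.exists_smul_eq (al A) b
      exact Nat.card_congr (Equiv.ofBijective _ h3)
    have hNs : Group.IsSolvable N := by
      apply Cfsg.Agent.FT.solvable_of_odd
      rw [hcardN]
      exact (even_iff_two_dvd.2 h.two).add_one
    refine inv_solv_of hNs ?_
    -- `N_G(A)` is solvable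
    have hNA : Group.IsSolvable (Nn A) := by
      have h5 : Group.IsSolvable (A.subgroupOf (Nn A)) :=
        solvable_of_solvable_injective (f := (Subgroup.subgroupOfEquivOfLe (Subgroup.le_normalizer (H := A))).toMonoidHom)
          (Subgroup.subgroupOfEquivOfLe (Subgroup.le_normalizer (H := A))).injective
      refine inv_solv_of h5 (Cfsg.Agent.FT.solvable_of_odd ?_)
      exact h.odd
    refine solvable_of_surjective (f := (QuotientGroup.mk' N).comp (Nn A).subtype) ?_
    intro q
    obtain ⟨x, rfl⟩ := QuotientGroup.mk_surjective q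
    obtain ⟨n, hn⟩ := hNt.exists_smul_eq (al A) (x • al A)
    have hn' : (n : G) • al A = x • al A := hn
    refine ⟨⟨(n : G)⁻¹ * x, ?_⟩, ?_⟩
    · rw [← smul_al_iff, mul_smul, ← hn', inv_smul_smul]
    · show (QuotientGroup.mk ((n : G)⁻¹ * x) : G ⧸ N) = QuotientGroup.mk x
      rw [QuotientGroup.mk_mul, QuotientGroup.mk_inv, (QuotientGroup.eq_one_iff (n : G)).2 n.2, inv_one, one_mul]

/-- every non-identity element of `A` is an involution -/
theorem inv_all_inv (hns : ¬ Group.IsSolvable G) {A : Subgroup G} (h : ES A) :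
    ∀ a ∈ A, a * a = 1 := by
  classical
  obtain ⟨g, hg⟩ : ∃ g, g ∉ Nn A := by
    by_contra hcon
    push Not at hcon
    exact h.ne_top (eq_top_iff.2 fun g _ => hcon g)
  have hy : al A ≠ (QuotientGroup.mk g : G ⧸ Nn A) := by
    intro h1
    apply hg
    rw [← smul_al_iff, smul_al, h1]
  have hker : Cfsg.Agent.H37.ZT.IsKer G (al A) A := by
    refine ⟨?_, ?_, h.ker_reg⟩
    · intro a ha
      exact smul_al_iff.2 (Subgroup.le_normalizer ha)
    · intro n hn u hu
      exact (Subgroup.mem_normalizer_iff.1 (smul_al_iff.1 hn) u).1 hu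
  obtain ⟨s, -, -, -, -, hc⟩ := h.exists_swap hy
  have hcard := h.card_omega
  have h2 : Nat.card (J A) = Nat.card A - 1 := by
    rw [h.card_IC_eq.1]
    rcases Cfsg.Agent.H37.ZT.zass_abelian (inv_zass hns h) hy hker (fun x hx y hy => h.sc.comm hx hy) with h1 | ⟨h1, -⟩
    · rw [hc, hcard] at h1; omega
    · exfalso
      rw [hc, hcard] at h1
      obtain ⟨k, hk⟩ := h.two
      have hpos : 0 < Nat.card A := Nat.card_pos
      omega
  have h3 : Nat.card {a : A // a ≠ 1} = Nat.card A - 1 := by
    have : Fintype A := Fintype.ofFinite _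
    rw [Nat.card_eq_fintype_card, Nat.card_eq_fintype_card, Fintype.card_subtype_compl, Fintype.card_subtype_eq]
  let f : J A → {a : A // a ≠ 1} := fun x => ⟨⟨x, x.2.1⟩, fun h1 => x.2.2.2 (congrArg Subtype.val h1)⟩
  have hf : Function.Injective f := by
    intro x y hxy
    exact Subtype.ext (congrArg (fun z => ((z : A) : G)) (congrArg Subtype.val hxy))
  have hb : Function.Bijective f := (Nat.bijective_iff_injective_and_card f).2 ⟨hf, by rw [h2, h3]⟩
  intro a ha
  by_cases ha1 : a = 1
  · rw [ha1, one_mul]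
  obtain ⟨x, hx⟩ := hb.2 ⟨⟨a, ha⟩, fun h1 => ha1 (congrArg Subtype.val h1)⟩
  have h4 : (x : G) = a := congrArg (fun z => ((z : A) : G)) (congrArg Subtype.val hx)
  rw [← h4]
  exact x.2.2.1

theorem inv_card_J (hns : ¬ Group.IsSolvable G) {A : Subgroup G} (h : ES A) : Nat.card A = e A + 1 := by
  classical
  rw [← h.card_IC_eq.1]
  have h3 : Nat.card {a : A // a ≠ 1} = Nat.card A - 1 := by
    have : Fintype A := Fintype.ofFinite _
    rw [Nat.card_eq_fintype_card, Nat.card_eq_fintype_card, Fintype.card_subtype_compl, Fintype.card_subtype_eq]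
  have h4 : Nat.card (J A) = Nat.card {a : A // a ≠ 1} := by
    apply Nat.card_congr
    exact ⟨fun x => ⟨⟨x, x.2.1⟩, fun h1 => x.2.2.2 (congrArg Subtype.val h1)⟩,
      fun a => ⟨a.1, a.1.2, inv_all_inv hns h _ a.1.2, fun h1 => a.2 (Subtype.ext h1)⟩, fun x => rfl, fun a => rfl⟩
  have : 0 < Nat.card A := Nat.card_pos
  omega

/-- a nonsolvable group in which the centralizer of every involution is self-centralizing is `PSL₂(2^a)` -/
theorem inv (hns : ¬ Group.IsSolvable G) (hkey : ∀ t : G, orderOf t = 2 → SelfCent (cz t)) :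
    ∃ a : ℕ, 0 < a ∧ Nonempty (G ≃* Matrix.ProjectiveSpecialLinearGroup (Fin 2) (GaloisField 2 a)) := by
  classical
  have hp2 : Fact (Nat.Prime 2) := ⟨Nat.prime_two⟩
  have h2 : 2 ∣ Nat.card G := Cfsg.Agent.FT.even_of_not_solvable hns
  obtain ⟨t, ht⟩ := exists_prime_orderOf_dvd_card' 2 h2
  have key : ∀ t : G, orderOf t = 2 → ES (Subgroup.centralizer {t}) := by
    intro t ht
    refine inv_es hns (hkey t ht) ?_
    rw [← ht]
    exact (cz t).orderOf_dvd_natCard (self_mem t)
  have h := key t ht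
  obtain ⟨S, hS⟩ := h.sc.exists_sylow_le h.two
  have hA2 : IsPGroup 2 (Subgroup.centralizer {t}) := by
    intro x
    refine ⟨1, ?_⟩
    apply Subtype.ext
    rw [pow_one, sq]
    exact inv_all_inv hns h x x.2
  have hSA : (S : Subgroup G) = Subgroup.centralizer {t} := (S.is_maximal' hA2 hS).symm
  have he := h.one_lt
  have hJ := inv_card_J hns h
  have hcS : Nat.card S = Nat.card (Subgroup.centralizer {t}) := by
    rw [← hSA]
  have hS3 : 3 ≤ Nat.card S := by omega
  have hSc : ¬ IsCyclic (S : Subgroup G) := by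
    intro hcyc
    obtain ⟨g, hg⟩ := hcyc.exists_generator
    have h3 : Nat.card S = orderOf g := by
      rw [← Nat.card_zpowers]
      have : Subgroup.zpowers g = ⊤ := by
        rw [eq_top_iff]; intro x _; exact hg x
      rw [this, Subgroup.card_top]
    have h4 : orderOf g ∣ 2 := by
      apply orderOf_dvd_of_pow_eq_one
      apply Subtype.ext
      rw [sq]
      exact inv_all_inv hns h g (by rw [← hSA]; exact g.2)
    have := Nat.le_of_dvd (by norm_num) h4
    omega
  have hSn : ¬ (S : Subgroup G).Normal := by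
    intro hn
    apply h.ne_top
    rw [← hSA]
    exact Subgroup.normalizer_eq_top_iff.2 hn
  obtain ⟨F, iF, iFF, hF, ⟨hG⟩⟩ := Cfsg.Agent.S1230.result S hSc hSn (by
    intro u hu
    have h1 := key u hu
    refine ⟨⟨⟨fun x y => Subtype.ext (h1.sc.comm x.2 y.2)⟩⟩, ?_⟩
    intro c hc
    rw [sq]
    exact inv_all_inv hns h1 c hc)
  obtain ⟨f, hf⟩ := IsPGroup.iff_card.1 S.isPGroup'
  have hf0 : f ≠ 0 := by
    rintro rfl
    rw [pow_zero] at hf
    omega
  refine ⟨f, Nat.pos_of_ne_zero hf0, ?_⟩
  have iGF : Fintype (GaloisField 2 f) := Fintype.ofFinite _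
  have hcard : Fintype.card F = Fintype.card (GaloisField 2 f) := by
    rw [hF, hf, ← Nat.card_eq_fintype_card, GaloisField.card 2 f hf0]
  exact ⟨hG.trans (Cfsg.Agent.ClassBase.pslCongr (FiniteField.ringEquivOfCardEq hcard))⟩

end Cfsg.Agent.H46CS
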