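import Cfsg.Agent.H46CS.Def
import Cfsg.Agent.FT.Base
import Cfsg.Agent.S4001
import Cfsg.Agent.JY.Struct
import Cfsg.Agent.Solv.MinNormal

/-!
# S4137, situation U: `O_p(G) = 1` for `p ∣ n2` (helper60)
-/

set_option autoImplicit false
set_option linter.style.haveILetI false
set_option linter.unusedSectionVars false

namespace Cfsg.Agent.H46CS

open Cfsg Cfsg.Agent.H35.CR Cfsg.Agent.SC

universe u

namespace U1

section General
variable {G : Type u} [Group G] [Finite G]

theorem solv_of_sup (N Y : Subgroup G) [Y.Normal] (hY : Group.IsSolvable Y)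
    (hN : Group.IsSolvable N) (hs : N ⊔ Y = ⊤) : Group.IsSolvable G := by
  haveI := hY
  haveI := hN
  have hsurj : Function.Surjective ((QuotientGroup.mk' Y).comp N.subtype) := by
    rw [← MonoidHom.range_eq_top, MonoidHom.range_comp, Subgroup.range_subtype]
    have h1 : (N ⊔ Y).map (QuotientGroup.mk' Y) = ⊤ := by
      rw [hs, ← MonoidHom.range_eq_map, MonoidHom.range_eq_top]
      exact QuotientGroup.mk'_surjective Y
    rw [Subgroup.map_sup] at h1
    have h2 : Y.map (QuotientGroup.mk' Y) = ⊥ := by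
      rw [Subgroup.map_eq_bot_iff, QuotientGroup.ker_mk']
    rw [h2, sup_bot_eq] at h1
    exact h1
  haveI : Group.IsSolvable (G ⧸ Y) := Group.isSolvable_of_surjective hsurj
  exact Group.isSolvable_of_ker_le_range Y.subtype (QuotientGroup.mk' Y)
    (by rw [QuotientGroup.ker_mk', Subgroup.range_subtype])

/-- an involution product of odd order is a conjugation by a power -/
theorem conj_of_odd {s t : G} (ht : t * t = 1) (hs : s * s = 1) {K : Subgroup G}
    (hc : s * t ∈ K) (hK : Odd (Nat.card K)) : ∃ d ∈ K, s = d * t * d⁻¹ := by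
  set c := s * t with hcdef
  obtain ⟨m, hm⟩ := hK
  have hcm : c ^ (Nat.card K) = 1 := by
    have := pow_card_eq_one' (x := (⟨c, hc⟩ : K))
    exact congrArg Subtype.val this
  have ht' : t⁻¹ = t := inv_eq_of_mul_eq_one_left ht
  have hs' : s⁻¹ = s := inv_eq_of_mul_eq_one_left hs
  have hinv : t * c * t⁻¹ = c⁻¹ := by
    rw [hcdef, mul_inv_rev, ht', hs']
    calc t * (s * t) * t = t * s * (t * t) := by group
      _ = t * s := by rw [ht, mul_one]
  have h2 : c ^ (2 * (m + 1)) = c := by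
    have : 2 * (m + 1) = Nat.card K + 1 := by omega
    rw [this, pow_succ, hcm, one_mul]
  refine ⟨c ^ (m + 1), pow_mem hc _, ?_⟩
  have h3 : t * (c ^ (m + 1))⁻¹ = c ^ (m + 1) * t := by
    have h4 : t * c ^ (m + 1) * t⁻¹ = (c ^ (m + 1))⁻¹ := by
      rw [← conj_pow, hinv, inv_pow]
    rw [← h4]
    calc t * (t * c ^ (m + 1) * t⁻¹) = (t * t) * c ^ (m + 1) * t⁻¹ := by
          simp only [mul_assoc]
      _ = c ^ (m + 1) * t := by rw [ht, one_mul, ht']
  calc s = c * t := by
        rw [hcdef, mul_assoc, ht, mul_one]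
    _ = c ^ (2 * (m + 1)) * t := by rw [h2]
    _ = c ^ (m + 1) * (c ^ (m + 1) * t) := by rw [two_mul, pow_add, mul_assoc]
    _ = c ^ (m + 1) * (t * (c ^ (m + 1))⁻¹) := by rw [h3]
    _ = _ := by group

theorem exists_orderOf (H : Subgroup G) {r : ℕ} (hr : r.Prime) (h : r ∣ Nat.card H) :
    ∃ y ∈ H, orderOf y = r := by
  haveI : Fact r.Prime := ⟨hr⟩
  obtain ⟨y, hy⟩ := exists_prime_orderOf_dvd_card' (G := H) r h
  exact ⟨y, y.2, by rw [Subgroup.orderOf_coe]; exact hy⟩

theorem odd_of_not {n : ℕ} (h : ¬ 2 ∣ n) : Odd n := by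
  rw [← Nat.not_even_iff_odd, even_iff_two_dvd]; exact h

/-- a nontrivial solvable normal subgroup meets some `O_r` -/
theorem exists_core {X : Type u} [Group X] [Finite X] (L : Subgroup X) [L.Normal]
    (hL : Group.IsSolvable L) (hL1 : L ≠ ⊥) : ∃ r : ℕ, r.Prime ∧ pCore r X ≠ ⊥ := by
  haveI := hL
  by_contra hcon
  push Not at hcon
  have h1 : ∀ p : Nat.Primes, pCore (p : ℕ) L = ⊥ := by
    intro p
    have h2 := Solv.map_subtype_pCore_le (p : ℕ) L
    rw [hcon p p.2, le_bot_iff, Subgroup.map_eq_bot_iff, Subgroup.ker_subtype, le_bot_iff] at h2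
    exact h2
  have h2 : fittingSubgroup L = ⊥ := by
    have h3 := Solv.fitting_le_iSup_pCore (G := L)
    rw [← le_bot_iff]
    refine h3.trans ?_
    apply iSup_le
    intro p
    rw [h1 p]
  have h3 := Solv.centralizer_fitting_le (G := L)
  rw [h2] at h3
  apply hL1
  rw [eq_bot_iff]
  intro x hx
  have h4 : (⟨x, hx⟩ : L) ∈ Subgroup.centralizer ((⊥ : Subgroup L) : Set L) := by
    rw [Subgroup.mem_centralizer_iff]
    intro y hy
    rw [SetLike.mem_coe, Subgroup.mem_bot] at hy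
    rw [hy, one_mul, mul_one]
  have h5 := h3 h4
  rw [Subgroup.mem_bot] at h5
  rw [Subgroup.mem_bot]
  exact congrArg Subtype.val h5

theorem solv_normalizer {R : Subgroup G} (hR : IsCyclic R)
    (hC : Group.IsSolvable (Subgroup.centralizer (R : Set G))) :
    Group.IsSolvable (Subgroup.normalizer (R : Set G)) := by
  haveI := hR
  haveI := hC
  haveI : Group.IsSolvable (MulAut R) := by
    have h1 := IsCyclic.mulAutMulEquiv R
    exact Group.isSolvable_of_surjective (f := h1.symm.toMonoidHom) h1.symm.surjective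
  have hle : Subgroup.centralizer (R : Set G) ≤ Subgroup.normalizer (R : Set G) := by
    exact Subgroup.centralizer_le_normalizer _
  refine Group.isSolvable_of_ker_le_range (Subgroup.inclusion hle) R.normalizerMonoidHom ?_
  rw [Subgroup.normalizerMonoidHom_ker]
  intro x hx
  exact ⟨⟨x, hx⟩, rfl⟩

end General

section Main
variable {G : Type u} [Group G] [Finite G] {n1 n2 n3 : ℕ} {D : Subgroup G} (h : U G n1 n2 n3 D)
include h

theorem even : 2 ∣ Nat.card G := by
  by_contra hcon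
  exact h.ns (FT.solvable_of_odd (odd_of_not hcon))

theorem n3_pos : 0 < n3 := by
  have h1 := h.mul
  have h2 : 0 < Nat.card G := Nat.card_pos
  rw [← h1] at h2
  exact Nat.pos_of_mul_pos_left h2 |> fun _ => by
    rcases Nat.eq_zero_or_pos n3 with h0 | h0
    · rw [h0, mul_zero] at h2; omega
    · exact h0

theorem core_cop {p : ℕ} (_hp : p.Prime) (hpn : p ∣ n2) {x : G} (hx : x ∈ pCore p G) :
    (orderOf x).Coprime n3 := by
  obtain ⟨k, hk⟩ := Solv.pCore_isPGroup (G := G) p ⟨x, hx⟩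
  have hk' : x ^ p ^ k = 1 := congrArg Subtype.val hk
  have h1 : orderOf x ∣ p ^ k := orderOf_dvd_of_pow_eq_one hk'
  have h2 : Nat.Coprime p n3 := Nat.Coprime.coprime_dvd_left hpn h.cop
  exact Nat.Coprime.coprime_dvd_left h1 (Nat.Coprime.pow_left k h2)

theorem case_odd (hsol : ∀ v : G, ∀ s : ℕ, s.Prime → orderOf v = s → c v = n3 → Group.IsSolvable (cz v))
    {p : ℕ} (hp : p.Prime) (hpn : p ∣ n2) (hQ : pCore p G ≠ ⊥) (h2 : ¬ 2 ∣ n2) : False := by
  obtain ⟨t, -, hto⟩ := exists_orderOf (⊤ : Subgroup G) Nat.prime_two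
    (by rw [Subgroup.card_top]; exact even h)
  have ht1 : t ≠ 1 := ne_one_of_prime Nat.prime_two hto
  have htt : t * t = 1 := by rw [← pow_two, ← hto]; exact pow_orderOf_eq_one t
  have ht' : t⁻¹ = t := inv_eq_of_mul_eq_one_left htt
  have htcop : (orderOf t).Coprime n2 := by
    rw [hto]; exact (Nat.Prime.coprime_iff_not_dvd Nat.prime_two).2 h2
  set Q := pCore p G with hQdef
  have hinv : ∀ q ∈ Q, t * q * t⁻¹ = q⁻¹ := by
    intro q hq
    refine JY.inverts htt (N := Q) (fun n hn => (inferInstance : Q.Normal).conj_mem n hn t) ?_ hq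
    intro n hn hc
    by_contra hn1
    exact h.nocomm hn1 ht1 (core_cop h hp hpn hn) htcop (mem_cz.2 hc)
  set K := Subgroup.centralizer (Q : Set G) with hK
  haveI hKn : K.Normal := inferInstance
  obtain ⟨x, hx, hx1⟩ : ∃ x : G, x ∈ Q ∧ x ≠ 1 := by
    obtain ⟨x, hx⟩ := Subgroup.ne_bot_iff_exists_ne_one.1 hQ
    exact ⟨x, x.2, fun h => hx (Subtype.ext h)⟩
  -- K has order prime to n3
  have hKcop : (Nat.card K).Coprime n3 := by
    rw [Nat.coprime_iff_gcd_eq_one] at *
    by_contra hne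
    obtain ⟨r, hr, hrd⟩ := Nat.exists_prime_and_dvd hne
    have hrK : r ∣ Nat.card K := hrd.trans (Nat.gcd_dvd_left _ _)
    have hr3 : r ∣ n3 := hrd.trans (Nat.gcd_dvd_right _ _)
    obtain ⟨y, hy, hyo⟩ := exists_orderOf K hr hrK
    have hy1 := ne_one_of_prime hr hyo
    have hr2 : ¬ r ∣ n2 := by
      intro hr2
      have := Nat.dvd_gcd hr2 hr3
      rw [h.cop.gcd_eq_one] at this
      exact hr.one_lt.ne' (Nat.dvd_one.1 this)
    refine h.nocomm hx1 hy1 (core_cop h hp hpn hx) ?_ ?_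
    · rw [hyo]; exact (Nat.Prime.coprime_iff_not_dvd hr).2 hr2
    · rw [mem_cz]
      exact ((Subgroup.mem_centralizer_iff.1 hy) x hx).symm
  have hKd : Nat.card K ∣ n2 := by
    have h3 : Nat.card K ∣ n2 * n3 := by rw [h.mul]; exact Subgroup.card_subgroup_dvd_card K
    exact Nat.Coprime.dvd_of_dvd_mul_right hKcop h3
  have hKodd : Odd (Nat.card K) := odd_of_not fun h3 => h2 (h3.trans hKd)
  have hKsol : Group.IsSolvable K := FT.solvable_of_odd hKodd
  -- G = K cz t
  have htop : cz t ⊔ K = ⊤ := by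
    rw [eq_top_iff]
    intro g _
    have hss : (g * t * g⁻¹) * (g * t * g⁻¹) = 1 := by
      calc (g * t * g⁻¹) * (g * t * g⁻¹) = g * (t * t) * g⁻¹ := by group
        _ = 1 := by rw [htt]; group
    have hsK : (g * t * g⁻¹) * t ∈ K := by
      rw [hK, Subgroup.mem_centralizer_iff]
      intro q hq
      have hq' : q ∈ Q := hq
      have e1 : t * q * t⁻¹ = q⁻¹ := hinv q hq'
      have hgq : g⁻¹ * q⁻¹ * g ∈ Q := by
        have := (inferInstance : Q.Normal).conj_mem _ (inv_mem hq') g⁻¹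
        rwa [inv_inv] at this
      have e2 := hinv _ hgq
      have e3 : (g * t * g⁻¹) * q⁻¹ * (g * t * g⁻¹)⁻¹ = q := by
        calc (g * t * g⁻¹) * q⁻¹ * (g * t * g⁻¹)⁻¹ = g * (t * (g⁻¹ * q⁻¹ * g) * t⁻¹) * g⁻¹ := by group
          _ = g * (g⁻¹ * q⁻¹ * g)⁻¹ * g⁻¹ := by rw [e2]
          _ = q := by group
      have e4 : (g * t * g⁻¹ * t) * q * (g * t * g⁻¹ * t)⁻¹ = q := by
        calc (g * t * g⁻¹ * t) * q * (g * t * g⁻¹ * t)⁻¹ =
              (g * t * g⁻¹) * (t * q * t⁻¹) * (g * t * g⁻¹)⁻¹ := by group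
          _ = q := by rw [e1, e3]
      exact (mul_inv_eq_iff_eq_mul.1 e4).symm
    obtain ⟨d, hd, hdt⟩ := conj_of_odd htt hss hsK hKodd
    have hdg : d⁻¹ * g ∈ cz t := by
      rw [mem_cz]
      calc d⁻¹ * g * t = d⁻¹ * (g * t * g⁻¹) * g := by group
        _ = d⁻¹ * (d * t * d⁻¹) * g := by rw [hdt]
        _ = t * (d⁻¹ * g) := by group
    have : g = d * (d⁻¹ * g) := by group
    rw [this]
    exact mul_mem ((le_sup_right : K ≤ cz t ⊔ K) hd) ((le_sup_left : cz t ≤ cz t ⊔ K) hdg)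
  have hct : c t = n3 := by
    have h3 := Solv.card_sup_dvd_of_normal (cz t) K
    rw [htop, Subgroup.card_top, ← h.mul] at h3
    have h4 : n2 * n3 ≤ c t * Nat.card K :=
      Nat.le_of_dvd (Nat.mul_pos (c_pos t) Nat.card_pos) h3
    have hn2 : 0 < n2 := by rw [← h.card]; exact Nat.card_pos
    have h5 : Nat.card K ≤ n2 := Nat.le_of_dvd hn2 hKd
    have h6 : n2 * n3 ≤ n2 * c t := by
      calc n2 * n3 ≤ c t * Nat.card K := h4
        _ ≤ c t * n2 := Nat.mul_le_mul_left _ h5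
        _ = n2 * c t := mul_comm _ _
    have h7 : n3 ≤ c t := Nat.le_of_mul_le_mul_left h6 hn2
    rcases h.type13 Nat.prime_two h2 (by rw [hto]) with h8 | h8
    · have h9 : n1 ≤ n3 := Nat.le_of_dvd (n3_pos h) h.d13
      have := h.h13
      omega
    · exact h8
  exact h.ns (solv_of_sup (cz t) K hKsol (hsol t 2 Nat.prime_two hto hct) htop)

theorem case_two {p : ℕ} (hp : p.Prime) (hpn : p ∣ n2) (hQ : pCore p G ≠ ⊥) {k : ℕ}
    (h2 : n2 = 2 ^ k) (N : Subgroup G) (hN : N.Normal) (hNs : Group.IsSolvable N) {v : G}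
    (hv : v ∈ N) {s : ℕ} (hs : s.Prime) (hs2 : s ≠ 2) (hvo : orderOf v = s) : False := by
  classical
  have hp2 : p = 2 := by
    rw [h2] at hpn
    exact (Nat.prime_dvd_prime_iff_eq hp Nat.prime_two).1 (hp.dvd_of_dvd_pow hpn)
  subst hp2
  have h23 : Nat.Coprime 2 n3 := Nat.Coprime.coprime_dvd_left hpn h.cop
  have hcodd : ∀ {m : ℕ}, ¬ 2 ∣ m → m.Coprime n2 := by
    intro m hm
    rw [h2]
    exact (Nat.Coprime.pow_left k ((Nat.Prime.coprime_iff_not_dvd Nat.prime_two).2 hm)).symm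
  -- centralizers of odd elements are odd
  have hoddC : ∀ y : G, y ≠ 1 → ¬ 2 ∣ orderOf y → Odd (Nat.card (cz y)) := by
    intro y hy1 hyo
    apply odd_of_not
    intro hd
    obtain ⟨i, hi, hio⟩ := exists_orderOf (cz y) Nat.prime_two hd
    have hi1 := ne_one_of_prime Nat.prime_two hio
    exact h.nocomm hi1 hy1 (by rw [hio]; exact h23) (hcodd hyo) (mem_cz_symm hi)
  set Q := pCore 2 G with hQdef
  haveI hNn := hN
  set X := G ⧸ Q with hX
  have hcX : pCore 2 X = ⊥ := Solv.pCore_quotient_pCore 2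
  set L : Subgroup X := N.map (QuotientGroup.mk' Q) with hL
  haveI hLn : L.Normal := hN.map _ (QuotientGroup.mk'_surjective Q)
  have hLs : Group.IsSolvable L := by
    haveI := hNs
    exact Group.isSolvable_of_surjective (f := (QuotientGroup.mk' Q).subgroupMap N)
      ((QuotientGroup.mk' Q).subgroupMap_surjective N)
  have hL1 : L ≠ ⊥ := by
    intro h0
    rw [hL, Subgroup.map_eq_bot_iff, QuotientGroup.ker_mk'] at h0
    have hvQ := h0 hv
    obtain ⟨j, hj⟩ := Solv.pCore_isPGroup (G := G) 2 ⟨v, hvQ⟩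
    have hj' : v ^ 2 ^ j = 1 := congrArg Subtype.val hj
    have h3 : s ∣ 2 ^ j := by rw [← hvo]; exact orderOf_dvd_of_pow_eq_one hj'
    exact hs2 ((Nat.prime_dvd_prime_iff_eq hs Nat.prime_two).1 (hs.dvd_of_dvd_pow h3))
  obtain ⟨r, hr, hrX⟩ := exists_core L hLs hL1
  haveI : Fact r.Prime := ⟨hr⟩
  have hr2 : r ≠ 2 := by
    rintro rfl
    exact hrX hcX
  set Y : Subgroup G := (pCore r X).comap (QuotientGroup.mk' Q) with hY
  haveI hYn : Y.Normal := inferInstance
  have hQY : Q ≤ Y := by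
    intro q hq
    rw [hY, Subgroup.mem_comap]
    have : (QuotientGroup.mk' Q) q = 1 := (QuotientGroup.eq_one_iff q).2 hq
    rw [this]; exact one_mem _
  -- Y solvable
  have hYs : Group.IsSolvable Y := by
    haveI : Group.IsSolvable Q := by
      haveI : Group.IsNilpotent Q := (Solv.pCore_isPGroup (G := G) 2).isNilpotent
      infer_instance
    haveI : Group.IsSolvable (pCore r X) := by
      haveI : Group.IsNilpotent (pCore r X) := (Solv.pCore_isPGroup (G := X) r).isNilpotent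
      infer_instance
    refine Group.isSolvable_of_ker_le_range (Subgroup.inclusion hQY)
      ((QuotientGroup.mk' Q).subgroupComap (pCore r X)) ?_
    intro y hy
    rw [MonoidHom.mem_ker] at hy
    have h3 : (QuotientGroup.mk' Q) (y : G) = 1 := congrArg Subtype.val hy
    exact ⟨⟨y, (QuotientGroup.eq_one_iff _).1 h3⟩, rfl⟩
  obtain ⟨S⟩ : Nonempty (Sylow r Y) := inferInstance
  set R : Subgroup G := (S : Subgroup Y).map Y.subtype with hR
  have hRp : IsPGroup r R := S.isPGroup'.map _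
  have hR1 : R ≠ ⊥ := by
    intro h0
    rw [hR, Subgroup.map_eq_bot_iff, Subgroup.ker_subtype, le_bot_iff] at h0
    have h3 : ¬ r ∣ (S : Subgroup Y).index := S.not_dvd_index
    rw [h0, Subgroup.index_bot] at h3
    apply h3
    have h4 : Nat.card (pCore r X) ∣ Nat.card Y :=
      Subgroup.card_dvd_of_surjective ((QuotientGroup.mk' Q).subgroupComap (pCore r X)) (by
        rintro ⟨x, hx⟩
        obtain ⟨g, rfl⟩ := QuotientGroup.mk'_surjective Q x
        exact ⟨⟨g, hx⟩, rfl⟩)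
    refine dvd_trans ?_ h4
    obtain ⟨j, hj⟩ := IsPGroup.iff_card.1 (Solv.pCore_isPGroup (G := X) r)
    rw [hj]
    rcases Nat.eq_zero_or_pos j with hj0 | hj0
    · exfalso
      rw [hj0, pow_zero] at hj
      exact hrX (Subgroup.card_eq_one.1 hj)
    · exact dvd_pow_self r hj0.ne'
  have hRodd : ∀ y ∈ R, ¬ 2 ∣ orderOf y := by
    intro y hy h3
    obtain ⟨j, hj⟩ := hRp ⟨y, hy⟩
    have hj' : y ^ r ^ j = 1 := congrArg Subtype.val hj
    have h4 : 2 ∣ r ^ j := h3.trans (orderOf_dvd_of_pow_eq_one hj')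
    exact hr2 ((Nat.prime_dvd_prime_iff_eq Nat.prime_two hr).1
      (Nat.prime_two.dvd_of_dvd_pow h4)).symm
  obtain ⟨y, hy, hy1⟩ : ∃ y ∈ R, y ≠ 1 := by
    obtain ⟨y, hy⟩ := Subgroup.ne_bot_iff_exists_ne_one.1 hR1
    exact ⟨y, y.2, fun h0 => hy (Subtype.ext h0)⟩
  -- the module
  set Z : Subgroup G := Q ⊓ Subgroup.centralizer (Q : Set G) with hZ
  haveI hZn : Z.Normal := inferInstance
  have hfpf : Frob.HasFPFModule R := by
    have hZc : ∀ a ∈ Z, ∀ b ∈ Z, a * b = b * a := by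
      intro a ha b hb
      exact ((Subgroup.mem_centralizer_iff.1 ha.2) b hb.1).symm
    letI : CommGroup Z :=
      { (inferInstance : Group Z) with
        mul_comm := fun a b => Subtype.ext (hZc a a.2 b b.2) }
    have hRZ : R ≤ Subgroup.normalizer (Z : Set G) := by
      rw [Subgroup.normalizer_eq_top_iff.2 hZn]; exact le_top
    refine ⟨Z, inferInstance, inferInstance, ?_, Frob.conjAct R Z hRZ, Frob.isFPF_conjAct hRZ ?_⟩
    · have hQp : IsPGroup 2 Q := Solv.pCore_isPGroup (G := G) 2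
      haveI : Nontrivial Q := (Subgroup.nontrivial_iff_ne_bot Q).2 hQ
      haveI := hQp.center_nontrivial
      obtain ⟨z, hz⟩ := exists_ne (1 : Subgroup.center Q)
      refine ⟨⟨⟨((z : Q) : G), (z : Q).2, Subgroup.mem_centralizer_iff.2 ?_⟩, 1, ?_⟩⟩
      · intro q hq
        have := (Subgroup.mem_center_iff.1 z.2) ⟨q, hq⟩
        exact congrArg Subtype.val this
      · intro h0
        apply hz
        have h3 : ((z : Q) : G) = 1 := congrArg Subtype.val h0
        exact Subtype.ext (Subtype.ext h3)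
    · intro a ha ha1
      rw [eq_bot_iff]
      intro z hz
      rw [Subgroup.mem_bot]
      by_contra hz1
      exact h.nocomm hz1 ha1 (core_cop h hp hpn hz.1.1) (hcodd (hRodd a ha))
        (mem_cz_symm hz.2)
  have hcyc : IsCyclic R := by
    refine Cfsg.Agent.S4001.isCyclic_of_odd hfpf hRp.isNilpotent (odd_of_not ?_)
    intro hd
    obtain ⟨z, hz, hzo⟩ := exists_orderOf R Nat.prime_two hd
    exact hRodd z hz (by rw [hzo])
  have hCs : Group.IsSolvable (Subgroup.centralizer (R : Set G)) := by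
    have h3 : Subgroup.centralizer (R : Set G) ≤ cz y := by
      intro z hz
      rw [mem_cz]
      exact ((Subgroup.mem_centralizer_iff.1 hz) y hy).symm
    apply FT.solvable_of_odd
    exact Odd.of_dvd_nat (hoddC y hy1 (hRodd y hy)) (Subgroup.card_dvd_of_le h3)
  have hNs' := solv_normalizer hcyc hCs
  have htop : Subgroup.normalizer (R : Set G) ⊔ Y = ⊤ := Sylow.normalizer_sup_eq_top S
  exact h.ns (solv_of_sup _ Y hYs hNs' htop)

end Main

end U1

theorem U.u1 {G : Type u} [Group G] [Finite G] {n1 n2 n3 : ℕ} {D : Subgroup G}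
    (h : U G n1 n2 n3 D)
    (hsol : ∀ v : G, ∀ s : ℕ, s.Prime → orderOf v = s → c v = n3 → Group.IsSolvable (cz v))
    {p : ℕ} (hp : p.Prime) (hpn : p ∣ n2) (hQ : Cfsg.pCore p G ≠ ⊥)
    (h2 : ¬ 2 ∣ n2 ∨ ((∃ k, n2 = 2 ^ k) ∧ ∃ N : Subgroup G, N.Normal ∧ Group.IsSolvable N ∧
      ∃ v ∈ N, ∃ s : ℕ, s.Prime ∧ s ≠ 2 ∧ orderOf v = s)) : False := by
  rcases h2 with h2 | ⟨⟨k, hk⟩, N, hN, hNs, v, hv, s, hs, hs2, hvo⟩
  · exact U1.case_odd h hsol hp hpn hQ h2
  · exact U1.case_two h hp hpn hQ hk N hN hNs hv hs hs2 hvo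

end Cfsg.Agent.H46CS
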