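import Cfsg.Agent.H46CS.Def
import Cfsg.Agent.H35.KegelC
import Cfsg.Agent.H68.SimpleTwo
import Cfsg.Agent.Solv.Core
import Cfsg.Agent.FT.Base
import Cfsg.Agent.H23.PGroupNormal
import Cfsg.Agent.H72.Basic
import Cfsg.Agent.S0033

/-!
# S4137, piece U3: situation U with abelian self-centralizing `D` of odd order and trivial Fitting subgroup
-/

set_option autoImplicit false
set_option linter.style.haveILetI false
set_option linter.unusedSectionVars false

namespace Cfsg.Agent.H46CS

open Cfsg.Agent.H35.CR Cfsg.Agent.SC Cfsg.Agent.H35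

universe u

namespace U3

/-- an element of prime order acting without fixed points on a normal subgroup makes it nilpotent -/
theorem nilp_of_fpf {T : Type u} [Group T] [Finite T] (N : Subgroup T) [hN : N.Normal] (hN1 : N ≠ ⊥) {a : T} {p : ℕ}
    (hp : p.Prime) (ha : orderOf a = p) (hfix : ∀ n ∈ N, n * a = a * n → n = 1) : Group.IsNilpotent N := by
  obtain ⟨w, hw, hw1⟩ : ∃ w ∈ N, w ≠ 1 := by
    by_contra hcon
    push Not at hcon
    exact hN1 ((Subgroup.eq_bot_iff_forall N).2 hcon)
  haveI : Fact p.Prime := ⟨hp⟩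
  let φ : N ≃* N := MulAut.conjNormal a
  have hφ : ∀ x : N, ((φ x : N) : T) = a * x * a⁻¹ := fun x => MulAut.conjNormal_apply a x
  have hcomm : ∀ x ∈ N, a * x * a⁻¹ = x → x = 1 := by
    intro x hx h
    apply hfix x hx
    rw [mul_inv_eq_iff_eq_mul] at h
    exact h.symm
  have hφp : orderOf φ = p := by
    apply orderOf_eq_prime
    · change (MulAut.conjNormal a) ^ p = (1 : MulAut N)
      rw [← map_pow, ← ha, pow_orderOf_eq_one, map_one]
    · intro h1
      apply hw1
      apply hcomm w hw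
      have h2 := hφ ⟨w, hw⟩
      rw [h1] at h2
      exact h2.symm
  exact S0033.result φ (fun x hx => by
    apply Subtype.ext
    apply hcomm x x.2
    rw [← hφ x]
    exact congrArg Subtype.val hx) p hp hφp

theorem exists_min_card {G : Type u} [Group G] [Finite G] (P : Subgroup G → Prop) {H : Subgroup G} (h : P H) :
    ∃ K, P K ∧ ∀ L, P L → Nat.card K ≤ Nat.card L := by
  obtain ⟨K, hK, hmin⟩ := (measure (fun K : Subgroup G => Nat.card K)).wf.has_min {K | P K} ⟨H, h⟩
  exact ⟨K, hK, fun L hL => not_lt.1 (hmin L hL)⟩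

theorem nil_bot {G : Type u} [Group G] [Finite G] (hF : Cfsg.fittingSubgroup G = ⊥) (T : Subgroup G) [T.Normal]
    (N : Subgroup T) (hN : N.Normal) (hnil : Group.IsNilpotent N) : N = ⊥ := by
  have h1 : N ≤ Cfsg.fittingSubgroup T := Solv.le_fitting hN hnil
  have h2 := (Subgroup.map_mono (f := T.subtype) h1).trans (Solv.map_subtype_fitting_le T)
  rw [hF, le_bot_iff, Subgroup.map_eq_bot_iff_of_injective _ T.subtype_injective] at h2
  exact h2

/-- the centralizer of an element of prime order dividing `|D|` is abelian -/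
theorem comm_of {G : Type u} [Group G] [Finite G] {D : Subgroup G} (hD : SelfCent D) {r : ℕ} (hr : r.Prime)
    (hrD : r ∣ Nat.card D) {u : G} (hu : orderOf u = r) {x y : G} (hx : x ∈ cz u) (hy : y ∈ cz u) :
    x * y = y * x := by
  haveI : Fact r.Prime := ⟨hr⟩
  obtain ⟨S, hS⟩ := hD.exists_sylow_le hrD
  have hu1 := ne_one_of_prime hr hu
  obtain ⟨z, P, hz, huP, hPz, -⟩ := exists_full_comm hr hu1 (k := 1) (by
    rw [pow_one, ← hu, pow_orderOf_eq_one])
  obtain ⟨g, hg⟩ := MulAction.exists_smul_eq G P S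
  have h1 : g * u * g⁻¹ ∈ (S : Subgroup G) := by
    rw [← hg]
    exact Subgroup.smul_mem_pointwise_smul _ (MulAut.conj g) _ huP
  have h2 := hD _ (hS h1) (conj_ne_one hu1)
  have key : ∀ w ∈ cz u, g * w * g⁻¹ ∈ D := by
    intro w hw
    rw [← h2, Subgroup.mem_centralizer_singleton_iff]
    have h4 := mem_cz.1 hw
    calc g * w * g⁻¹ * (g * u * g⁻¹) = g * (w * u) * g⁻¹ := by group
      _ = g * (u * w) * g⁻¹ := by rw [h4]
      _ = _ := by group
  have h3 := hD.comm (key x hx) (key y hy)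
  have h5 : g * (x * y) * g⁻¹ = g * (y * x) * g⁻¹ := by
    calc g * (x * y) * g⁻¹ = g * x * g⁻¹ * (g * y * g⁻¹) := by group
      _ = g * y * g⁻¹ * (g * x * g⁻¹) := h3
      _ = _ := by group
  exact mul_left_cancel (mul_right_cancel h5)

section Main

variable {G : Type u} [Group G] [Finite G] {n1 n2 n3 : ℕ} {D : Subgroup G} (h : U G n1 n2 n3 D) (hD : SelfCent D)
  (hF : Cfsg.fittingSubgroup G = ⊥)

include h in
theorem D_ne : D ≠ ⊥ := by
  intro hb
  obtain ⟨x, hx, hcx⟩ := h.ex2
  have h1 := h.card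
  rw [hb, Subgroup.card_bot, ← hcx] at h1
  have h2 : orderOf x ∣ c x := (cz x).orderOf_dvd_natCard (self_mem x)
  rw [← h1, Nat.dvd_one] at h2
  exact hx (orderOf_eq_one_iff.1 h2)

theorem exists_prime_mem {G : Type u} [Group G] [Finite G] {K : Subgroup G} (hK : K ≠ ⊥) :
    ∃ (p : ℕ) (a : G), p.Prime ∧ orderOf a = p ∧ a ∈ K := by
  obtain ⟨w, hw, hw1⟩ : ∃ w ∈ K, w ≠ 1 := by
    by_contra hcon
    push Not at hcon
    exact hK ((Subgroup.eq_bot_iff_forall K).2 hcon)
  obtain ⟨p, k, hp, hk⟩ := exists_prime_power hw1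
  exact ⟨p, w ^ k, hp, hk, K.pow_mem hw k⟩

include h hD hF in
/-- a nontrivial normal subgroup of `G` meets `D` -/
theorem meet (T : Subgroup G) (hT : T.Normal) (hT1 : T ≠ ⊥) : D ⊓ T ≠ ⊥ := by
  intro hb
  obtain ⟨p, a, hp, ha, haD⟩ := exists_prime_mem (D_ne h)
  apply hT1
  have h1 : Group.IsNilpotent T := nilp_of_fpf T hT1 hp ha (by
    intro n hn hna
    have h3 : n ∈ D := by
      rw [← hD a haD (ne_one_of_prime hp ha), Subgroup.mem_centralizer_singleton_iff]
      exact hna
    have h2 : n ∈ D ⊓ T := ⟨h3, hn⟩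
    rwa [hb, Subgroup.mem_bot] at h2)
  have h2 := Solv.le_fitting hT h1
  rwa [hF, le_bot_iff] at h2

include h hD hF in
/-- two nontrivial normal subgroups of a normal subgroup `T` meet nontrivially -/
theorem inter (T : Subgroup G) (hT : T.Normal) (hT1 : T ≠ ⊥) (N M : Subgroup T) (hN : N.Normal) (hM : M.Normal)
    (hN1 : N ≠ ⊥) (hM1 : M ≠ ⊥) : N ⊓ M ≠ ⊥ := by
  intro hb
  -- an element of `D ⊓ T` of prime order
  obtain ⟨p, a, hp, ha, haD, haT⟩ := exists_prime_mem (meet h hD hF T hT hT1)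
  have ha' : orderOf (⟨a, haT⟩ : T) = p := by rw [← Subgroup.orderOf_coe]; exact ha
  -- an element of `N` of prime order dividing `n2`
  obtain ⟨r, u, hr, hu, huN, hrD⟩ : ∃ (r : ℕ) (u : T), r.Prime ∧ orderOf u = r ∧ u ∈ N ∧ r ∣ Nat.card D := by
    by_contra hcon
    push Not at hcon
    apply hN1
    apply nil_bot hF T N hN
    refine nilp_of_fpf N hN1 hp ha' ?_
    intro n hn hna
    by_contra hn1
    have hnD : (n : G) ∈ D := by
      rw [← hD a haD (ne_one_of_prime hp ha), Subgroup.mem_centralizer_singleton_iff]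
      exact congrArg Subtype.val hna
    obtain ⟨r, k, hr, hk⟩ := exists_prime_power hn1
    apply hcon r (n ^ k) hr hk (N.pow_mem hn k)
    rw [← hk, ← Subgroup.orderOf_coe]
    exact D.orderOf_dvd_natCard (D.pow_mem hnD k)
  have huG : orderOf (u : G) = r := by rw [Subgroup.orderOf_coe]; exact hu
  apply hM1
  apply nil_bot hF T M hM
  have hMu : ∀ m ∈ M, (m : G) ∈ cz (u : G) := by
    intro m hm
    have h1 := Subgroup.commute_of_normal_of_disjoint N M hN hM (disjoint_iff.2 hb) u m huN hm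
    rw [mem_cz]
    exact (congrArg Subtype.val h1).symm
  have hcomm : ∀ x y : M, x * y = y * x := by
    intro x y
    apply Subtype.ext
    apply Subtype.ext
    exact comm_of hD hr hrD huG (hMu x x.2) (hMu y y.2)
  letI : CommGroup M := { (inferInstance : Group M) with mul_comm := hcomm }
  exact CommGroup.isNilpotent

include h hD hF in
/-- there is a simple nonabelian normal subgroup -/
theorem exists_simple : ∃ T : Subgroup G, T.Normal ∧ T ≠ ⊥ ∧ IsSimpleGroup T ∧ ¬ ∀ a b : T, a * b = b * a := by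
  have hnt : (⊤ : Subgroup G) ≠ ⊥ := by
    intro hb
    apply D_ne h
    rw [← le_bot_iff, ← hb]
    exact le_top
  obtain ⟨T, ⟨hT, hT1⟩, hmin⟩ := exists_min_card (fun K : Subgroup G => K.Normal ∧ K ≠ ⊥) (H := ⊤)
    ⟨inferInstance, hnt⟩
  haveI := hT
  haveI hTn : Nontrivial T := (Subgroup.nontrivial_iff_ne_bot T).2 hT1
  refine ⟨T, hT, hT1, ?_, ?_⟩
  · have hnt' : (⊤ : Subgroup T) ≠ ⊥ := top_ne_bot
    obtain ⟨N, ⟨hN, hN1⟩, hminN⟩ := exists_min_card (fun K : Subgroup T => K.Normal ∧ K ≠ ⊥) (H := ⊤)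
      ⟨inferInstance, hnt'⟩
    -- `N` is normal in `G`
    have hle : ∀ g : G, N ≤ N.map (MulAut.conjNormal g : T ≃* T).toMonoidHom := by
      intro g
      set φ : T ≃* T := MulAut.conjNormal g
      have h1 : (N.map φ.toMonoidHom).Normal := Subgroup.Normal.map hN _ φ.surjective
      have h2 : N.map φ.toMonoidHom ≠ ⊥ := by
        intro hb
        apply hN1
        exact (Subgroup.map_eq_bot_iff_of_injective N (f := φ.toMonoidHom) φ.injective).1 hb
      have h3 := inter h hD hF T hT hT1 N _ hN h1 hN1 h2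
      have h4 := hminN _ ⟨inferInstance, h3⟩
      have h5 : N ⊓ N.map φ.toMonoidHom = N := Subgroup.eq_of_le_of_card_ge inf_le_left h4
      exact inf_eq_left.1 h5
    have hNG : (N.map T.subtype).Normal := by
      constructor
      rintro _ ⟨n, hn, rfl⟩ g
      obtain ⟨n', hn', hn'n⟩ := hle g⁻¹ hn
      refine ⟨n', hn', ?_⟩
      have h6 : ((MulAut.conjNormal g⁻¹ n' : T) : G) = g⁻¹ * n' * (g⁻¹)⁻¹ := MulAut.conjNormal_apply _ _
      have h7 : ((MulAut.conjNormal g⁻¹ n' : T) : G) = n := congrArg Subtype.val hn'n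
      rw [h6] at h7
      show (n' : G) = g * (n : G) * g⁻¹
      rw [← h7]
      group
    have hNb : N.map T.subtype ≠ ⊥ := by
      rw [Ne, Subgroup.map_eq_bot_iff_of_injective _ T.subtype_injective]
      exact hN1
    have hcard := hmin _ ⟨hNG, hNb⟩
    rw [Subgroup.card_map_of_injective T.subtype_injective] at hcard
    refine ⟨fun L hL => ?_⟩
    by_cases hLb : L = ⊥
    · exact Or.inl hLb
    · right
      have h8 := hminN L ⟨hL, hLb⟩
      apply Subgroup.eq_top_of_card_eq
      exact le_antisymm (Subgroup.card_le_card_group L) (hcard.trans h8)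
  · intro hcomm
    apply hT1
    have h1 : (⊤ : Subgroup T) = ⊥ := by
      apply nil_bot hF T ⊤ inferInstance
      letI : CommGroup (⊤ : Subgroup T) := { (inferInstance : Group (⊤ : Subgroup T)) with
        mul_comm := fun x y => Subtype.ext (hcomm x y) }
      exact CommGroup.isNilpotent
    exact absurd h1 top_ne_bot

end Main

theorem card_sub {G : Type u} [Group G] [Finite G] (D T : Subgroup G) : Nat.card (D.subgroupOf T) ∣ Nat.card D := by
  have h1 : Nat.card ((D.subgroupOf T).map T.subtype) = Nat.card (D.subgroupOf T) :=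
    Subgroup.card_map_of_injective T.subtype_injective
  rw [← h1, Subgroup.subgroupOf_map_subtype]
  exact Subgroup.card_dvd_of_le inf_le_left

/-- numerical step -/
theorem num {n2 n3 a b c d : ℕ} (hcop : n2.Coprime n3) (h : a * b = c * d) (ha : a ∣ n2) (hd : d ∣ n2) (hb : b ∣ n3)
    (hc : c ∣ n3) : a = d := by
  apply Nat.dvd_antisymm
  · have h1 : a.Coprime c := Nat.Coprime.coprime_dvd_left ha (Nat.Coprime.coprime_dvd_right hc hcop)
    exact h1.dvd_of_dvd_mul_left (h ▸ Dvd.intro b rfl)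
  · have h1 : d.Coprime b := Nat.Coprime.coprime_dvd_left hd (Nat.Coprime.coprime_dvd_right hb hcop)
    exact h1.dvd_of_dvd_mul_right (h ▸ Dvd.intro_left c rfl)

end U3

open U3 in
theorem U.u3 {G : Type u} [Group G] [Finite G] {n1 n2 n3 : ℕ} {D : Subgroup G} (h : U G n1 n2 n3 D)
    (hD : SelfCent D) (hodd : ¬ 2 ∣ n2) (h2m : 2 ∣ Nat.card G / n1) (hF : Cfsg.fittingSubgroup G = ⊥) : False := by
  obtain ⟨T, hT, hT1, hTs, hna⟩ := exists_simple h hD hF
  haveI := hT
  haveI := hTs
  haveI hf2 : Fact (Nat.Prime 2) := ⟨Nat.prime_two⟩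
  -- `T` has even order
  have hTe : 2 ∣ Nat.card T := by
    apply Cfsg.Agent.FT.even_of_not_solvable
    intro hs
    exact hna (IsSimpleGroup.comm_iff_isSolvable.2 hs)
  -- an involution of `T` centralized by a Sylow 2-subgroup of `G`
  obtain ⟨t, S, ht, htT, hSt⟩ : ∃ (t : G) (S : Sylow 2 G), orderOf t = 2 ∧ t ∈ T ∧ (S : Subgroup G) ≤ cz t := by
    obtain ⟨v, hv⟩ := exists_prime_orderOf_dvd_card' (G := T) 2 hTe
    have hvo : orderOf (v : G) = 2 := by rw [Subgroup.orderOf_coe]; exact hv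
    have hv1 : (v : G) ≠ 1 := ne_one_of_prime Nat.prime_two hvo
    obtain ⟨z, S, -, hvS, -, -⟩ := exists_full_comm Nat.prime_two hv1 (k := 1) (by
      rw [pow_one, ← hvo, pow_orderOf_eq_one])
    have hne : T.subgroupOf (S : Subgroup G) ≠ ⊥ := by
      intro hb
      have h1 : (⟨v, hvS⟩ : (S : Subgroup G)) ∈ T.subgroupOf (S : Subgroup G) := Subgroup.mem_subgroupOf.2 v.2
      rw [hb, Subgroup.mem_bot] at h1
      exact hv1 (congrArg Subtype.val h1)
    obtain ⟨z, hz, hzo, hzc⟩ := Cfsg.Agent.H23.exists_central_orderOf S.isPGroup'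
      (N := T.subgroupOf (S : Subgroup G)) inferInstance hne
    refine ⟨z, S, by rw [Subgroup.orderOf_coe]; exact hzo, Subgroup.mem_subgroupOf.1 hz, fun x hx => ?_⟩
    rw [mem_cz]
    exact congrArg Subtype.val (Subgroup.mem_center_iff.1 hzc ⟨x, hx⟩)
  have ht1 := ne_one_of_prime Nat.prime_two ht
  have h2t : 2 ∣ c t := by rw [← ht]; exact (cz t).orderOf_dvd_natCard (self_mem t)
  have hct : c t = n3 := by
    rcases h.hall t ht1 with h1 | h1 | h1
    · exfalso
      have h2 : (cz t).index = Nat.card G / n1 := by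
        rw [← h1]
        exact (Nat.div_eq_of_eq_mul_right (c_pos t) (cz t).card_mul_index.symm).symm
      rw [← h2] at h2m
      exact S.not_dvd_index (h2m.trans (Subgroup.index_dvd_of_le hSt))
    · exact absurd (h1 ▸ h2t) hodd
    · exact h1
  -- the subgroup `D ⊓ T` of `T`
  set DT := D.subgroupOf T with hDT
  have hDTs : SelfCent DT := by
    intro u hu hu1
    have hu1' : (u : G) ≠ 1 := fun hh => hu1 (Subtype.ext hh)
    have h1 := hD u (Subgroup.mem_subgroupOf.1 hu) hu1'
    ext x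
    rw [hDT, Subgroup.mem_subgroupOf, ← h1, Subgroup.mem_centralizer_singleton_iff,
      Subgroup.mem_centralizer_singleton_iff]
    constructor
    · intro hx; exact congrArg Subtype.val hx
    · intro hx; exact Subtype.ext hx
  set t' : T := ⟨t, htT⟩ with ht'
  have hCT : Subgroup.centralizer ({t'} : Set T) = (cz t).subgroupOf T := by
    ext x
    rw [Subgroup.mem_subgroupOf, mem_cz, Subgroup.mem_centralizer_singleton_iff]
    constructor
    · intro hx; exact congrArg Subtype.val hx
    · intro hx; exact Subtype.ext hx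
  have hindex_t : (cz t).index = n2 := by
    have h1 := (cz t).card_mul_index
    have h2 : Nat.card (cz t) = n3 := hct
    rw [h2, ← h.mul, mul_comm] at h1
    exact Nat.eq_of_mul_eq_mul_right (by rw [← hct]; exact c_pos t) h1
  have hindex_D : D.index = n3 := by
    have h1 := D.card_mul_index
    rw [h.card, ← h.mul] at h1
    refine Nat.eq_of_mul_eq_mul_left ?_ h1
    rw [← h.card]; exact Nat.card_pos
  have e1 : Nat.card DT * DT.index = Nat.card T := DT.card_mul_index
  have e2 : Nat.card ((cz t).subgroupOf T) * ((cz t).subgroupOf T).index = Nat.card T :=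
    Subgroup.card_mul_index _
  have d1 : Nat.card DT ∣ n2 := by
    rw [← h.card]
    exact card_sub D T
  have d2 : Nat.card ((cz t).subgroupOf T) ∣ n3 := by
    rw [← hct]
    exact card_sub (cz t) T
  have d3 : DT.index ∣ n3 := by
    rw [← hindex_D]
    exact Cfsg.Agent.H72.relIndex_dvd_index_of_normal_right D T
  have d4 : ((cz t).subgroupOf T).index ∣ n2 := by
    rw [← hindex_t]
    exact Cfsg.Agent.H72.relIndex_dvd_index_of_normal_right (cz t) T
  have e3 := num h.cop (e1.trans e2.symm) d1 d4 d3 d2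
  have hAB : Nat.card DT * Nat.card (Subgroup.centralizer ({t'} : Set T)) = Nat.card T := by
    rw [hCT, e3, mul_comm]; exact e2
  have hcop : (Nat.card DT).Coprime (Nat.card (Subgroup.centralizer ({t'} : Set T))) := by
    rw [hCT]
    exact Nat.Coprime.coprime_dvd_left d1 (Nat.Coprime.coprime_dvd_right d2 h.cop)
  have hto : orderOf t' = 2 := by rw [← Subgroup.orderOf_coe]; exact ht
  have ht'1 : t' ≠ 1 := ne_one_of_prime Nat.prime_two hto
  have hG : ¬ IsMulCommutative T := fun hh => hna fun a b => hh.is_comm.comm a b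
  apply Cfsg.Agent.H68.ST.not_isolated hG t'
  refine ⟨hto, fun g hg => ?_⟩
  have h1 : (g⁻¹)⁻¹ * t' * g⁻¹ ∈ Subgroup.centralizer ({t'} : Set T) := by
    rw [inv_inv, Subgroup.mem_centralizer_singleton_iff]; exact hg.symm
  haveI := Fintype.ofFinite T
  have h2 := Kg.isolated hna hDTs ht'1 hAB hcop g⁻¹ h1
  have h3 := Subgroup.mem_centralizer_singleton_iff.1 ((Subgroup.centralizer ({t'} : Set T)).inv_mem h2)
  rw [inv_inv] at h3
  rw [h3]; group

end Cfsg.Agent.H46CS
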